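import Mathlib
import Cfsg.Agent.Lib.SymMax.Partition

/-! The even permutations preserving a uniform partition form a maximal subgroup of the alternating group. -/

set_option autoImplicit false

namespace CfsgLib.SymMax

open Equiv Equiv.Perm

variable {Ω β : Type*} [Fintype Ω] [DecidableEq Ω] {f : Ω → β} {a : ℕ}

theorem swap_mul_swap_mem_alt {x y z w : Ω} (h1 : x ≠ y) (h2 : z ≠ w) :
    swap x y * swap z w ∈ alternatingGroup Ω := by
  rw [mem_alternatingGroup, map_mul, sign_swap h1, sign_swap h2]; simp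

/-- Fix the parity of an element by a transposition inside a block fixing two given points. -/
theorem fix_parity {k : Perm Ω} (hk : k ∈ partStab f) {u v x y : Ω} (hxy : x ≠ y) (hf : f x = f y)
    (h1 : x ≠ u) (h2 : x ≠ v) (h3 : y ≠ u) (h4 : y ≠ v) :
    ∃ k' ∈ partStab f ⊓ alternatingGroup Ω, k' u = k u ∧ k' v = k v := by
  rcases Int.units_eq_one_or (sign k) with h | h
  · exact ⟨k, ⟨hk, h⟩, rfl, rfl⟩
  · refine ⟨k * swap x y, ⟨mul_mem hk (swap_mem_partStab hf), ?_⟩, ?_, ?_⟩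
    · change k * swap x y ∈ alternatingGroup Ω
      rw [mem_alternatingGroup, map_mul, sign_swap hxy, h]; simp
    · rw [Perm.mul_apply, swap_apply_of_ne_of_ne h1.symm h3.symm]
    · rw [Perm.mul_apply, swap_apply_of_ne_of_ne h2.symm h4.symm]

theorem exists_alt_map_pair_same [Nontrivial β] (ha : 2 ≤ a)
    (hf : ∀ i, Nat.card {x : Ω // f x = i} = a) {u v u' v' : Ω}
    (huv : u ≠ v) (huv' : u' ≠ v') (h : f u = f v) (h' : f u' = f v') :
    ∃ k ∈ partStab f ⊓ alternatingGroup Ω, k u = u' ∧ k v = v' := by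
  obtain ⟨k, hk, rfl, rfl⟩ := exists_map_pair_same hf huv huv' h h'
  obtain ⟨j, hj⟩ := exists_ne (f u)
  obtain ⟨x, y, hxy, hx, hy⟩ := exists_pair_in_fibre (f := f) (i := j) (by rw [hf]; exact ha)
  refine fix_parity hk hxy (hx.trans hy.symm) ?_ ?_ ?_ ?_
  · rintro rfl; exact hj hx.symm
  · rintro rfl; exact hj (hx.symm.trans h.symm)
  · rintro rfl; exact hj hy.symm
  · rintro rfl; exact hj (hy.symm.trans h.symm)

theorem exists_alt_map_pair_diff (ha : 2 ≤ a)
    (hf : ∀ i, Nat.card {x : Ω // f x = i} = a) (h3 : 3 ≤ a ∨ ∀ i j : β, ∃ l, l ≠ i ∧ l ≠ j)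
    {u v u' v' : Ω} (h : f u ≠ f v) (h' : f u' ≠ f v') :
    ∃ k ∈ partStab f ⊓ alternatingGroup Ω, k u = u' ∧ k v = v' := by
  obtain ⟨k, hk, rfl, rfl⟩ := exists_map_pair_diff hf h h'
  rcases h3 with h3 | h3
  · obtain ⟨x, y, hxy, hx, hy, hx', hy'⟩ := exists_pair_ne_in_fibre (f := f) u (by rw [hf]; exact h3)
    refine fix_parity hk hxy (hx'.trans hy'.symm) hx ?_ hy ?_
    · rintro rfl; exact h hx'.symm
    · rintro rfl; exact h hy'.symm
  · obtain ⟨l, hl1, hl2⟩ := h3 (f u) (f v)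
    obtain ⟨x, y, hxy, hx, hy⟩ := exists_pair_in_fibre (f := f) (i := l) (by rw [hf]; exact ha)
    refine fix_parity hk hxy (hx.trans hy.symm) ?_ ?_ ?_ ?_
    · rintro rfl; exact hl1 hx.symm
    · rintro rfl; exact hl2 hx.symm
    · rintro rfl; exact hl1 hy.symm
    · rintro rfl; exact hl2 hy.symm

omit [DecidableEq Ω] in
/-- The partner function of a partition into pairs. -/
theorem exists_partner (hf : ∀ i, Nat.card {x : Ω // f x = i} = 2) :
    ∃ p : Ω → Ω, (∀ x, p x ≠ x) ∧ (∀ x, f (p x) = f x) ∧ ∀ x y, f y = f x → y = x ∨ y = p x := by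
  have : ∀ x, ∃ y, y ≠ x ∧ f y = f x ∧ ∀ z, f z = f x → z = x ∨ z = y := by
    intro x
    obtain ⟨y, hy, hy'⟩ := (Nat.card_eq_two_iff' (⟨x, rfl⟩ : {z : Ω // f z = f x})).1 (hf (f x))
    refine ⟨y, fun h => hy (Subtype.ext h), y.2, fun z hz => ?_⟩
    by_cases hzx : z = x
    · exact Or.inl hzx
    · exact Or.inr (congrArg Subtype.val (hy' ⟨z, hz⟩ fun h => hzx (congrArg Subtype.val h)))
  choose p h1 h2 h3 using this
  exact ⟨p, h1, h2, h3⟩

omit [Fintype Ω] in
theorem swap_blocks_mem {p : Ω → Ω} (hp1 : ∀ x, p x ≠ x) (hp2 : ∀ x, f (p x) = f x)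
    (hp3 : ∀ x y, f y = f x → y = x ∨ y = p x) {u v : Ω} (huv : f u ≠ f v) :
    swap u v * swap (p u) (p v) ∈ partStab f := by
  classical
  apply mem_partStab_of_comp (swap (f u) (f v)) (swap (f u) (f v)).injective
  intro x
  have a1 : p u ≠ v := fun h => huv (by rw [← h, hp2])
  have a2 : p v ≠ u := fun h => huv (by rw [← h, hp2])
  have a3 : p u ≠ p v := fun h => huv (by rw [← hp2 u, h, hp2])
  have a4 : u ≠ v := fun h => huv (by rw [h])
  by_cases h1 : f x = f u
  · rw [h1, swap_apply_left]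
    rcases hp3 u x h1 with rfl | rfl
    · rw [Perm.mul_apply, swap_apply_of_ne_of_ne (hp1 _).symm a2.symm, swap_apply_left]
    · rw [Perm.mul_apply, swap_apply_left, swap_apply_of_ne_of_ne a2 (hp1 _), hp2]
  by_cases h2 : f x = f v
  · rw [h2, swap_apply_right]
    rcases hp3 v x h2 with rfl | rfl
    · rw [Perm.mul_apply, swap_apply_of_ne_of_ne a1.symm (hp1 _).symm, swap_apply_right]
    · rw [Perm.mul_apply, swap_apply_right, swap_apply_of_ne_of_ne (hp1 _) a1, hp2]
  · rw [swap_apply_of_ne_of_ne h1 h2, Perm.mul_apply, swap_apply_of_ne_of_ne (x := x),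
      swap_apply_of_ne_of_ne]
    · rintro rfl; exact h1 rfl
    · rintro rfl; exact h2 rfl
    · rintro rfl; exact h1 (hp2 _)
    · rintro rfl; exact h2 (hp2 _)

/-- For a partition into pairs with three or at least five blocks, a proper overgroup of the even
stabilizer contains a three-cycle. -/
theorem exists_threeCycle_pairs (hf : ∀ i, Nat.card {x : Ω // f x = i} = 2)
    (h3 : ∀ i j : β, ∃ l, l ≠ i ∧ l ≠ j)
    (h5 : ∀ i j k l : β, i ≠ j → k ≠ i → k ≠ j → l ≠ i → l ≠ j → l ≠ k →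
      ∃ m, m ≠ i ∧ m ≠ j ∧ m ≠ k ∧ m ≠ l)
    {G : Subgroup (Perm Ω)} (hG : partStab f ⊓ alternatingGroup Ω ≤ G)
    {g : Perm Ω} (hg : g ∈ G) (hgK : g ∉ partStab f) : ∃ c ∈ G, IsThreeCycle c := by
  obtain ⟨p, hp1, hp2, hp3⟩ := exists_partner hf
  obtain ⟨g, hg, x, x', hxx, hgx⟩ := exists_not_preserved hg hgK
  obtain rfl : x' = p x := by
    rcases hp3 x x' hxx.symm with h | h
    · exact absurd (by rw [h]) hgx
    · exact h
  have hpp : ∀ y, p (p y) = y := fun y => by
    rcases hp3 y (p (p y)) (by rw [hp2, hp2]) with h | h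
    · exact h
    · exact absurd h (hp1 _)
  have hE : ∀ y z, swap y (p y) * swap z (p z) ∈ G := fun y z =>
    hG ⟨mul_mem (swap_mem_partStab (hp2 y).symm) (swap_mem_partStab (hp2 z).symm),
      swap_mul_swap_mem_alt (hp1 y).symm (hp1 z).symm⟩
  set u := g x with hu
  set v := g (p x) with hv
  have hS : ∀ c, swap u v * swap c (g (p (g⁻¹ c))) ∈ G := fun c => by
    have := mul_mem (mul_mem hg (hE x (g⁻¹ c))) (inv_mem hg)
    have e : g * (swap x (p x) * swap (g⁻¹ c) (p (g⁻¹ c))) * g⁻¹ =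
        (g * swap x (p x) * g⁻¹) * (g * swap (g⁻¹ c) (p (g⁻¹ c)) * g⁻¹) := by group
    rw [e, ← swap_apply_apply, ← swap_apply_apply] at this
    simpa using this
  set q : Ω → Ω := fun c => g (p (g⁻¹ c)) with hq
  have hq1 : ∀ c, q c ≠ c := fun c h => hp1 (g⁻¹ c) (by
    have := congrArg (g⁻¹ : Perm Ω) h
    simpa [hq] using this)
  have hqq : ∀ c, q (q c) = c := fun c => by simp [hq, hpp]
  have hqu : q u = v := by simp [hq, hu, hv]
  have hqv : q v = u := by rw [← hqu, hqq]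
  have a1 : p u ≠ v := fun h => hgx (by rw [← h, hp2])
  have a3 : p u ≠ p v := fun h => hgx (by rw [← hp2 u, h, hp2])
  have a4 : u ≠ v := fun h => hgx (by rw [h])
  have hk : swap u v * swap (p u) (p v) ∈ G :=
    hG ⟨swap_blocks_mem hp1 hp2 hp3 hgx, swap_mul_swap_mem_alt a4 a3⟩
  by_cases hz : q (p u) = p v
  swap
  · refine ⟨_, mul_mem (inv_mem hk) (hS (p u)), ?_⟩
    have e : (swap u v * swap (p u) (p v))⁻¹ * (swap u v * swap (p u) (g (p (g⁻¹ (p u))))) =
        swap (p u) (p v) * swap (p u) (q (p u)) := by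
      rw [mul_inv_rev, mul_assoc, inv_mul_cancel_left, swap_inv]
    rw [e]
    exact isThreeCycle_swap_mul_swap_same a3 (hq1 _).symm (Ne.symm hz)
  have hz' : q (p v) = p u := by rw [← hz, hqq]
  obtain ⟨l, hl1, hl2⟩ := h3 (f u) (f v)
  obtain ⟨c, -, -, hc, -⟩ := exists_pair_in_fibre (f := f) (i := l) (by rw [hf])
  subst hc
  have hw1 : f (q c) ≠ f u := by
    intro h
    rcases hp3 u _ h with h | h
    · apply hl2; rw [← hqq c, h, hqu]
    · apply hl2; rw [← hqq c, h, hz, hp2]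
  have hw2 : f (q c) ≠ f v := by
    intro h
    rcases hp3 v _ h with h | h
    · apply hl1; rw [← hqq c, h, hqv]
    · apply hl1; rw [← hqq c, h, hz', hp2]
  obtain ⟨e, he, e1, e2, e3⟩ : ∃ e ∈ G, e u = p u ∧ e v = v ∧ swap (e c) (e (q c)) = swap c (q c) := by
    have hne : ∀ {y z : Ω}, f y ≠ f z → y ≠ z ∧ y ≠ p z := fun {y z} h =>
      ⟨fun h' => h (by rw [h']), fun h' => h (by rw [h', hp2])⟩
    by_cases hw : f (q c) = f c
    · have hw' : q c = p c := (hp3 c _ hw).resolve_left (hq1 c)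
      refine ⟨_, hE u c, ?_, ?_, ?_⟩
      · rw [Perm.mul_apply, swap_apply_of_ne_of_ne (hne hl1.symm).1 (hne hl1.symm).2, swap_apply_left]
      · rw [Perm.mul_apply, swap_apply_of_ne_of_ne (hne hl2.symm).1 (hne hl2.symm).2,
          swap_apply_of_ne_of_ne a4.symm a1.symm]
      · have hpc : f (p c) ≠ f u := by rw [hp2]; exact hl1
        rw [hw', Perm.mul_apply, Perm.mul_apply, swap_apply_left, swap_apply_right,
          swap_apply_of_ne_of_ne (hne hpc).1 (hne hpc).2, swap_apply_of_ne_of_ne (hne hl1).1 (hne hl1).2,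
          swap_comm]
    · obtain ⟨m, m1, m2, m3, m4⟩ := h5 (f u) (f v) (f c) (f (q c)) hgx hl1 hl2 hw1 hw2 hw
      obtain ⟨d, -, -, hd, -⟩ := exists_pair_in_fibre (f := f) (i := m) (by rw [hf])
      subst hd
      refine ⟨_, hE u d, ?_, ?_, ?_⟩
      · rw [Perm.mul_apply, swap_apply_of_ne_of_ne (hne m1.symm).1 (hne m1.symm).2, swap_apply_left]
      · rw [Perm.mul_apply, swap_apply_of_ne_of_ne (hne m2.symm).1 (hne m2.symm).2,
          swap_apply_of_ne_of_ne a4.symm a1.symm]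
      · rw [Perm.mul_apply, Perm.mul_apply, swap_apply_of_ne_of_ne (hne m3.symm).1 (hne m3.symm).2,
          swap_apply_of_ne_of_ne (hne m4.symm).1 (hne m4.symm).2,
          swap_apply_of_ne_of_ne (hne hl1).1 (hne hl1).2, swap_apply_of_ne_of_ne (hne hw1).1 (hne hw1).2]
  refine ⟨_, mul_mem (mul_mem (mul_mem he (hS c)) (inv_mem he)) (inv_mem (hS c)), ?_⟩
  have e4 : e * (swap u v * swap c (g (p (g⁻¹ c)))) * e⁻¹ =
      (e * swap u v * e⁻¹) * (e * swap c (q c) * e⁻¹) := by
    simp only [hq]; group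
  rw [e4, ← swap_apply_apply, ← swap_apply_apply, e1, e2, e3]
  have e5 : swap (p u) v * swap c (q c) * (swap u v * swap c (g (p (g⁻¹ c))))⁻¹ =
      swap v (p u) * swap v u := by
    rw [mul_inv_rev, ← mul_assoc, mul_inv_cancel_right, swap_inv, swap_comm (p u), swap_comm u]
  rw [e5]
  exact isThreeCycle_swap_mul_swap_same a1.symm a4.symm (hp1 u)

theorem alt_not_le_partStab [Nontrivial β] (ha : 2 ≤ a) (hf : ∀ i, Nat.card {x : Ω // f x = i} = a) :
    ¬ alternatingGroup Ω ≤ partStab f := by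
  obtain ⟨i, j, hij⟩ := exists_pair_ne β
  obtain ⟨u, u', huu', hu, hu'⟩ := exists_pair_in_fibre (f := f) (i := i) (by rw [hf]; exact ha)
  obtain ⟨v, v', hvv', hv, hv'⟩ := exists_pair_in_fibre (f := f) (i := j) (by rw [hf]; exact ha)
  intro h
  have huv : u ≠ v := by rintro rfl; exact hij (hu.symm.trans hv)
  have huv' : u ≠ v' := by rintro rfl; exact hij (hu.symm.trans hv')
  have hu'v : u' ≠ v := by rintro rfl; exact hij (hu'.symm.trans hv)
  have hu'v' : u' ≠ v' := by rintro rfl; exact hij (hu'.symm.trans hv')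
  have := (h (swap_mul_swap_mem_alt huv hvv') u u').1 (hu.trans hu'.symm)
  rw [Perm.mul_apply, Perm.mul_apply, swap_apply_of_ne_of_ne huv huv', swap_apply_left,
    swap_apply_of_ne_of_ne hu'v hu'v', swap_apply_of_ne_of_ne huu'.symm hu'v, hv, hu'] at this
  exact hij this.symm

theorem alt_le_of_lt [Nontrivial β] (ha : 2 ≤ a) (hf : ∀ i, Nat.card {x : Ω // f x = i} = a)
    (h3 : 3 ≤ a ∨ ((∀ i j : β, ∃ l, l ≠ i ∧ l ≠ j) ∧
      ∀ i j k l : β, i ≠ j → k ≠ i → k ≠ j → l ≠ i → l ≠ j → l ≠ k →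
        ∃ m, m ≠ i ∧ m ≠ j ∧ m ≠ k ∧ m ≠ l))
    {G : Subgroup (Perm Ω)} (hG : partStab f ⊓ alternatingGroup Ω ≤ G)
    {g : Perm Ω} (hg : g ∈ G) (hgK : g ∉ partStab f) : alternatingGroup Ω ≤ G := by
  have h2 : MulAction.IsMultiplyPretransitive G Ω 2 := by
    refine two_transitive_of_pairs ?_ ?_ hg hgK
    · intro u v u' v' h h'
      obtain ⟨k, hk, h1⟩ := exists_alt_map_pair_diff ha hf (h3.imp id And.left) h h'
      exact ⟨k, hG hk, h1⟩
    · intro u v u' v' h h' e e'
      obtain ⟨k, hk, h1⟩ := exists_alt_map_pair_same ha hf h h' e e'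
      exact ⟨k, hG hk, h1⟩
  have hprim : MulAction.IsPreprimitive G Ω := MulAction.isPreprimitive_of_is_two_pretransitive h2
  obtain ⟨c, hc, hc3⟩ : ∃ c ∈ G, IsThreeCycle c := by
    by_cases ha3 : 3 ≤ a
    · obtain ⟨i, -⟩ := exists_pair_ne β
      obtain ⟨u, -, -, hu, -⟩ := exists_pair_in_fibre (f := f) (i := i) (by rw [hf]; exact ha)
      obtain ⟨y, z, hyz, hy, hz, hy', hz'⟩ := exists_pair_ne_in_fibre (f := f) u (by rw [hf]; exact ha3)
      exact ⟨_, hG ⟨mul_mem (swap_mem_partStab hy'.symm) (swap_mem_partStab hz'.symm),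
        swap_mul_swap_mem_alt hy.symm hz.symm⟩, isThreeCycle_swap_mul_swap_same hy.symm hz.symm hyz⟩
    · obtain rfl : a = 2 := by omega
      obtain ⟨h3, h5⟩ := h3.resolve_left ha3
      exact exists_threeCycle_pairs hf h3 h5 hG hg hgK
  exact alternatingGroup_le_of_isPreprimitive_of_isThreeCycle_mem hprim hc3 hc

/-- The degree four case. -/
theorem alt_eq_of_lt_four (hΩ : Fintype.card Ω = 4) (hf : ∀ i, Nat.card {x : Ω // f x = i} = 2)
    {G : Subgroup (Perm Ω)} (hG : partStab f ⊓ alternatingGroup Ω < G) (hGA : G ≤ alternatingGroup Ω) :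
    G = alternatingGroup Ω := by
  obtain ⟨p, hp1, hp2, hp3⟩ := exists_partner hf
  set K := partStab f ⊓ alternatingGroup Ω with hK
  have htr : MulAction.IsPretransitive K Ω := by
    refine ⟨fun x y => ?_⟩
    by_cases h : f y = f x
    · rcases hp3 x y h with rfl | rfl
      · exact ⟨1, rfl⟩
      · obtain ⟨c, hc⟩ : ∃ c, f c ≠ f x := by
          by_contra hcon
          push Not at hcon
          have : Nat.card {z : Ω // f z = f x} = Nat.card Ω :=
            Nat.card_congr (Equiv.subtypeUnivEquiv hcon)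
          rw [hf, Nat.card_eq_fintype_card, hΩ] at this
          omega
        refine ⟨⟨swap x (p x) * swap c (p c), mul_mem (swap_mem_partStab (hp2 _).symm)
          (swap_mem_partStab (hp2 _).symm), swap_mul_swap_mem_alt (hp1 _).symm (hp1 _).symm⟩, ?_⟩
        change (swap x (p x) * swap c (p c)) x = p x
        rw [Perm.mul_apply, swap_apply_of_ne_of_ne (x := x), swap_apply_left]
        · rintro rfl; exact hc rfl
        · intro h'; apply hc; rw [h', hp2]
    · have h' : f x ≠ f y := Ne.symm h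
      refine ⟨⟨swap x y * swap (p x) (p y), swap_blocks_mem hp1 hp2 hp3 h',
        swap_mul_swap_mem_alt (fun e => h' (by rw [e])) (fun e => h' (by rw [← hp2, e, hp2]))⟩, ?_⟩
      change (swap x y * swap (p x) (p y)) x = y
      rw [Perm.mul_apply, swap_apply_of_ne_of_ne (x := x) (hp1 _).symm, swap_apply_left]
      intro e; apply h'; rw [e, hp2]
  have hne : Nonempty Ω := Fintype.card_pos_iff.1 (by omega)
  obtain ⟨x⟩ := hne
  have h4 : 4 ∣ Nat.card K := by
    have := MulAction.index_stabilizer_of_transitive K x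
    rw [Nat.card_eq_fintype_card, hΩ] at this
    rw [← this]
    exact Subgroup.index_dvd_card _
  have hA : Nat.card (alternatingGroup Ω) = 12 := by
    have : Nontrivial Ω := Fintype.one_lt_card_iff_nontrivial.1 (by omega)
    have h := two_mul_nat_card_alternatingGroup (α := Ω)
    rw [Nat.card_perm, Nat.card_eq_fintype_card (α := Ω), hΩ] at h
    simp only [Nat.factorial] at h
    omega
  have h1 : Nat.card K ∣ Nat.card G := Subgroup.card_dvd_of_le hG.le
  have h2 : Nat.card G ∣ 12 := hA ▸ Subgroup.card_dvd_of_le hGA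
  have h3 : Nat.card K ≠ Nat.card G := fun h => hG.ne (Subgroup.eq_of_le_of_card_ge hG.le h.ge)
  have h5 : 0 < Nat.card K := Nat.card_pos
  apply Subgroup.eq_of_le_of_card_ge hGA
  rw [hA]
  have h6 : Nat.card G ≤ 12 := Nat.le_of_dvd (by norm_num) h2
  have h7 : Nat.card K ≤ Nat.card G := Nat.le_of_dvd Nat.card_pos h1
  have h8 : 4 ∣ Nat.card G := h4.trans h1
  obtain ⟨s, hs⟩ := h4
  obtain ⟨t, ht⟩ := h8
  have : t = 2 ∨ t = 3 := by omega
  rcases this with rfl | rfl
  · rw [ht] at h2; norm_num at h2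
  · omega

end CfsgLib.SymMax
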